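import Mathlib.LinearAlgebra.TensorProduct.Basis
import Mathlib.LinearAlgebra.TensorProduct.Tower
import Mathlib.RepresentationTheory.Basic
import Mathlib.FieldTheory.IsAlgClosed.AlgebraicClosure
import Mathlib.LinearAlgebra.Eigenspace.Triangularizable
import Mathlib.GroupTheory.PGroup
import Mathlib.Algebra.Module.ZMod
import Mathlib.Algebra.Field.ZMod
import Mathlib.FieldTheory.Finite.Basic
import Mathlib.RingTheory.Artinian.Module

/-!
Common eigenvectors of abelian groups of operators, fixed vectors of `p`-groups in characteristic `p`,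
and descent of fixed vectors along an extension of fields.
-/

set_option autoImplicit false

namespace CfsgLib.FixedPointBound

open TensorProduct

section Descent

variable {F : Type*} [Field F] (k : Type*) [Field k] [Algebra F k]
variable {G : Type*} [Group G] {E : Type*} [AddCommGroup E] [Module F E]

/-- Extension of scalars of a representation. -/
noncomputable def extRep (ρ : Representation F G E) : Representation k G (k ⊗[F] E) where
  toFun g := (ρ g).baseChange k
  map_one' := by rw [map_one]; exact LinearMap.baseChange_id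
  map_mul' g h := by rw [map_mul]; exact LinearMap.baseChange_comp _ _

/-- The coordinate map attached to a functional. -/
noncomputable def coordMap (φ : k →ₗ[F] F) : k ⊗[F] E →ₗ[F] E :=
  (TensorProduct.lid F E).toLinearMap ∘ₗ φ.rTensor E

variable {k}

theorem coordMap_extRep (φ : k →ₗ[F] F) (ρ : Representation F G E) (g : G) (z : k ⊗[F] E) :
    coordMap k φ (extRep k ρ g z) = ρ g (coordMap k φ z) := by
  induction z using TensorProduct.induction_on with
  | zero => simp
  | tmul a v => simp [extRep, coordMap, LinearMap.baseChange_tmul]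
  | add x y hx hy => simp only [map_add, hx, hy]

theorem exists_coordMap_ne_zero {z : k ⊗[F] E} (hz : z ≠ 0) : ∃ φ : k →ₗ[F] F, coordMap k φ z ≠ 0 := by
  classical
  by_contra h
  push Not at h
  let b := Module.Basis.ofVectorSpace F k
  refine hz ((TensorProduct.equivFinsuppOfBasisLeft b (N := E)).map_eq_zero_iff.1 (Finsupp.ext fun i => ?_))
  rw [TensorProduct.equivFinsuppOfBasisLeft_apply]
  exact h (b.coord i)

end Descent

section Eigen

variable {k : Type*} [Field k] {G : Type*} [Group G] {V : Type*} [AddCommGroup V] [Module k V]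

theorem exists_common_eigvec [IsAlgClosed k] [FiniteDimensional k V] [Nontrivial V] (ρ : Representation k G V)
    (A : Subgroup G) (hA : ∀ a ∈ A, ∀ b ∈ A, a * b = b * a) :
    ∃ (μ : G → k) (w : V), w ≠ 0 ∧ ∀ a ∈ A, ρ a w = μ a • w := by
  classical
  obtain ⟨W, ⟨hW0, hWinv⟩, hmin⟩ := wellFounded_lt.has_min
    {W : Submodule k V | W ≠ ⊥ ∧ ∀ a ∈ A, ∀ w ∈ W, ρ a w ∈ W} ⟨⊤, top_ne_bot, fun _ _ _ _ => trivial⟩
  haveI : Nontrivial W := Submodule.nontrivial_iff_ne_bot.2 hW0
  have hsc : ∀ a ∈ A, ∃ c : k, ∀ w ∈ W, ρ a w = c • w := by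
    intro a ha
    obtain ⟨c, hc⟩ := Module.End.exists_eigenvalue (((ρ a).restrict (hWinv a ha)) : Module.End k W)
    refine ⟨c, ?_⟩
    let U : Submodule k V := W ⊓ LinearMap.ker (ρ a - c • (1 : Module.End k V))
    have hUmem : ∀ x, x ∈ U ↔ x ∈ W ∧ ρ a x = c • x := fun x => by
      simp [U, sub_eq_zero]
    have hU : U = W := by
      refine eq_of_le_of_not_lt inf_le_left fun hlt => hmin U ⟨?_, ?_⟩ hlt
      · obtain ⟨x, hx⟩ := hc.exists_hasEigenvector
        refine (Submodule.ne_bot_iff _).2 ⟨(x : V), (hUmem _).2 ⟨x.2, ?_⟩,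
          fun h => hx.2 (Subtype.ext h)⟩
        exact congrArg Subtype.val hx.apply_eq_smul
      · intro b hb x hx
        obtain ⟨hxW, hxc⟩ := (hUmem x).1 hx
        refine (hUmem _).2 ⟨hWinv b hb x hxW, ?_⟩
        rw [← Module.End.mul_apply, ← map_mul, hA a ha b hb, map_mul, Module.End.mul_apply, hxc, map_smul]
    intro w hw
    exact ((hUmem w).1 (hU ▸ hw)).2
  choose! μ hμ using hsc
  obtain ⟨w, hw, hw0⟩ := (Submodule.ne_bot_iff _).1 hW0
  exact ⟨μ, w, hw0, fun a ha => hμ a ha w hw⟩

/-- Eigenvectors for distinct characters are independent. -/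
theorem eq_zero_of_sum_eq_zero {ι κ : Type*} (T : κ → Module.End k V) (χ : ι → κ → k) :
    ∀ (s : Finset ι) (f : ι → V), (∀ i ∈ s, ∀ j ∈ s, χ i = χ j → i = j) →
      (∀ i ∈ s, ∀ a, T a (f i) = χ i a • f i) → ∑ i ∈ s, f i = 0 → ∀ i ∈ s, f i = 0 := by
  classical
  intro s
  induction s using Finset.induction_on with
  | empty => simp
  | @insert i₀ s hi₀ ih =>
    intro f hinj heig hsum
    rw [Finset.sum_insert hi₀] at hsum
    have key : ∀ a, ∀ i ∈ s, (χ i a - χ i₀ a) • f i = 0 := by
      intro a
      refine ih (fun i => (χ i a - χ i₀ a) • f i)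
        (fun i hi j hj => hinj i (Finset.mem_insert_of_mem hi) j (Finset.mem_insert_of_mem hj))
        (fun i hi b => by rw [map_smul, heig i (Finset.mem_insert_of_mem hi), smul_comm]) ?_
      have h1 := congrArg (T a) hsum
      rw [map_add, map_sum, map_zero, heig i₀ (Finset.mem_insert_self _ _),
        Finset.sum_congr rfl fun i hi => heig i (Finset.mem_insert_of_mem hi) a] at h1
      have h2 := congrArg (χ i₀ a • ·) hsum
      simp only [smul_add, smul_zero, Finset.smul_sum] at h2
      simp only [sub_smul, Finset.sum_sub_distrib]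
      rw [← sub_self (0 : V)]
      nth_rewrite 1 [← h1]
      rw [← h2]
      abel
    have hs : ∀ i ∈ s, f i = 0 := by
      intro i hi
      obtain ⟨a, ha⟩ := Function.ne_iff.1 fun e : χ i = χ i₀ =>
        hi₀ (hinj i (Finset.mem_insert_of_mem hi) i₀ (Finset.mem_insert_self _ _) e ▸ hi)
      exact (smul_eq_zero.1 (key a i hi)).resolve_left (sub_ne_zero.2 ha)
    rw [Finset.sum_eq_zero hs, add_zero] at hsum
    intro i hi
    rcases Finset.mem_insert.1 hi with rfl | hi
    · exact hsum
    · exact hs i hi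

/-- A `p`-group fixes a nonzero vector in every nonzero invariant set closed under addition. -/
theorem exists_fixed_of_isPGroup {p : ℕ} [Fact p.Prime] [CharP k p] [Finite G] (ρ : Representation k G V)
    (P : Subgroup G) (hP : IsPGroup p P) (W : Submodule k V) (hW : ∀ g ∈ P, ∀ w ∈ W, ρ g w ∈ W)
    (w : V) (hw : w ∈ W) (hw0 : w ≠ 0) : ∃ u ∈ W, u ≠ 0 ∧ ∀ g ∈ P, ρ g u = u := by
  classical
  letI := Module.compHom V (ZMod.castHom (dvd_refl p) k)
  let M : Submodule (ZMod p) V := Submodule.span (ZMod p) (Set.range fun g : P => ρ g w)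
  haveI : Module.Finite (ZMod p) M := Module.Finite.span_of_finite _ (Set.finite_range _)
  haveI : Finite M := Module.finite_of_finite (ZMod p)
  have hsm : ∀ (c : ZMod p) (v : V), c • v = (ZMod.castHom (dvd_refl p) k c) • v := fun _ _ => rfl
  have hinv : ∀ g ∈ P, ∀ x ∈ M, ρ g x ∈ M := by
    intro g hg x hx
    induction hx using Submodule.span_induction with
    | mem y hy =>
      obtain ⟨h, rfl⟩ := hy
      exact Submodule.subset_span ⟨⟨g, hg⟩ * h, by
        simp only [Subgroup.coe_mul, map_mul, Module.End.mul_apply]⟩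
    | zero => rw [map_zero]; exact zero_mem _
    | add a b _ _ ha hb => rw [map_add]; exact add_mem ha hb
    | smul c a _ ha => rw [hsm, map_smul, ← hsm]; exact Submodule.smul_mem _ _ ha
  have hMW : ∀ x ∈ M, x ∈ W := by
    intro x hx
    induction hx using Submodule.span_induction with
    | mem y hy => obtain ⟨h, rfl⟩ := hy; exact hW h h.2 w hw
    | zero => exact zero_mem _
    | add a b _ _ ha hb => exact add_mem ha hb
    | smul c a _ ha => rw [hsm]; exact Submodule.smul_mem _ _ ha
  letI : MulAction P M :=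
    { smul := fun g x => ⟨ρ g x, hinv g g.2 x x.2⟩
      one_smul := fun x => Subtype.ext (by show ρ ((1 : P) : G) x = x; simp)
      mul_smul := fun g h x => Subtype.ext (by
        show ρ ((g * h : P) : G) x = ρ g (ρ h x)
        simp [map_mul]) }
  have hwM : w ∈ M := Submodule.subset_span ⟨1, by simp⟩
  have hdvd : p ∣ Nat.card M := by
    haveI : Nontrivial M := ⟨⟨⟨w, hwM⟩, 0, fun h => hw0 (congrArg Subtype.val h)⟩⟩
    obtain ⟨n, hn⟩ : ∃ n, Nat.card M = p ^ n :=
      ⟨Module.finrank (ZMod p) M, by rw [Module.natCard_eq_pow_finrank (K := ZMod p), Nat.card_zmod]⟩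
    rw [hn]
    refine dvd_pow_self p fun h0 => ?_
    rw [h0, pow_zero] at hn
    exact absurd hn (Finite.one_lt_card (α := M)).ne'
  have h0 : (0 : M) ∈ MulAction.fixedPoints P M := fun g => Subtype.ext (map_zero (ρ g))
  obtain ⟨u, hu, hne⟩ := hP.exists_fixed_point_of_prime_dvd_card_of_fixed_point M hdvd h0
  exact ⟨(u : V), hMW _ u.2, fun h => hne (Subtype.ext h.symm),
    fun g hg => congrArg Subtype.val (hu ⟨g, hg⟩)⟩

end Eigen

end CfsgLib.FixedPointBound
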