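import Cfsg.Agent.FixedPointBound.Descent
import Mathlib.GroupTheory.GroupAction.ConjAct
import Mathlib.GroupTheory.Index
import Mathlib.GroupTheory.SpecificGroups.Cyclic

/-!
Fixed vectors of a Sylow 2-subgroup acting monomially on the characters of a normal abelian subgroup.
-/

set_option autoImplicit false

namespace CfsgLib.FixedPointBound

variable {k : Type*} [Field k] [IsAlgClosed k] [CharP k 2] {S : Type*} [Group S] [Finite S]
variable {V : Type*} [AddCommGroup V] [Module k V] [FiniteDimensional k V] [Nontrivial V]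

/-- The conjugation action on functions on a normal subgroup. -/
def chAct {T : Type*} (A : Subgroup S) [hA : A.Normal] (g : S) (f : A → T) : A → T := fun a =>
  f ⟨g⁻¹ * a * g, by simpa using hA.conj_mem _ a.2 g⁻¹⟩

omit [Finite S] in
theorem chAct_mul {T : Type*} (A : Subgroup S) [A.Normal] (g h : S) (f : A → T) :
    chAct A (g * h) f = chAct A g (chAct A h f) := by
  funext a; simp only [chAct]; congr 1; ext; simp [mul_assoc]

omit [Finite S] in
theorem chAct_one {T : Type*} (A : Subgroup S) [A.Normal] (f : A → T) : chAct A 1 f = f := by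
  funext a; simp [chAct]

/-- `K = ⟨D, x⟩` with `D` a 2-group and `x` of prime odd order `q` inducing a fixed-point-free
operator on the abelian normal subgroup `A`, which fixes no vector. -/
theorem exists_fixed_orbit_sums (R : Representation k S V) (A D : Subgroup S) [A.Normal]
    (hA : ∀ a ∈ A, ∀ b ∈ A, a * b = b * a) (hD : IsPGroup 2 D) (x : S) (q : ℕ) (hq : q.Prime) (hq2 : q ≠ 2)
    (hx : orderOf x = q) (hK : Nat.card ↥(D ⊔ Subgroup.zpowers x) = Nat.card D * q)
    (hcomm : ⁅A, Subgroup.zpowers x⁆ = A) (hfix : ∀ v : V, (∀ a ∈ A, R a v = v) → v = 0) :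
    (∃ u : V, u ≠ 0 ∧ ∀ g ∈ D ⊔ Subgroup.zpowers x, R g u = u) ∧
      ∃ v : V, (∀ g ∈ D, R g v = v) ∧ R x v ≠ v := by
  classical
  haveI : Fact (Nat.Prime 2) := ⟨Nat.prime_two⟩
  haveI : Fact q.Prime := ⟨hq⟩
  set K := D ⊔ Subgroup.zpowers x with hKdef
  haveI : Fintype K := Fintype.ofFinite _
  obtain ⟨μ, w₁, hw₁, hμ⟩ := exists_common_eigvec R A hA
  let lam : A → k := fun a => μ a
  let IsEig : (A → k) → V → Prop := fun f v => ∀ a : A, R a v = f a • v
  have heig_move : ∀ g f v, IsEig f v → IsEig (chAct A g f) (R g v) := by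
    intro g f v hv a
    have h1 := hv ⟨g⁻¹ * a * g, by simpa using (‹A.Normal›).conj_mem _ a.2 g⁻¹⟩
    calc R a (R g v) = R g (R (g⁻¹ * a * g) v) := by
          rw [← Module.End.mul_apply, ← Module.End.mul_apply, ← map_mul, ← map_mul]
          congr 2; group
      _ = _ := by rw [h1, map_smul]; rfl
  have heig₁ : IsEig lam w₁ := fun a => hμ a a.2
  -- the stabilizer of `lam` in `K` is a 2-group
  let St : Subgroup S :=
    { carrier := {g | g ∈ K ∧ chAct A g lam = lam}
      one_mem' := ⟨one_mem _, chAct_one A _⟩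
      mul_mem' := fun {a b} ha hb => ⟨mul_mem ha.1 hb.1, by rw [chAct_mul A, hb.2, ha.2]⟩
      inv_mem' := fun {a} ha => ⟨inv_mem ha.1, by
        nth_rewrite 1 [← ha.2]
        rw [← chAct_mul A, inv_mul_cancel, chAct_one A]⟩ }
  have hStK : St ≤ K := fun g hg => hg.1
  have hq_St : ¬ q ∣ Nat.card St := by
    intro hdvd
    obtain ⟨y, hy⟩ := exists_prime_orderOf_dvd_card' q hdvd
    -- `y` generates a conjugate of `⟨x⟩` inside `K`
    have hxK : x ∈ K := Subgroup.mem_sup_right (Subgroup.mem_zpowers x)
    have hyK : (y : S) ∈ K := hStK y.2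
    have hval : (Nat.card K).factorization q = 1 := by
      rw [hK, Nat.factorization_mul Nat.card_pos.ne' hq.ne_zero, Finsupp.add_apply, hq.factorization_self]
      obtain ⟨n, hn⟩ := hD.exists_card_eq
      rw [hn, Nat.factorization_pow, Finsupp.smul_apply,
        Nat.factorization_eq_zero_of_not_dvd (fun h => hq2 ((Nat.prime_dvd_prime_iff_eq hq Nat.prime_two).1 h))]
      simp
    have hox : orderOf (⟨x, hxK⟩ : K) = q := by rw [Subgroup.orderOf_mk]; exact hx
    have hoy : orderOf (⟨y, hyK⟩ : K) = q := by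
      rw [Subgroup.orderOf_mk]; rw [← hy]; exact (Subgroup.orderOf_coe y)
    let Px : Sylow q K := Sylow.ofCard (Subgroup.zpowers (⟨x, hxK⟩ : K))
      (by rw [Nat.card_zpowers, hox, hval, pow_one])
    let Py : Sylow q K := Sylow.ofCard (Subgroup.zpowers (⟨y, hyK⟩ : K))
      (by rw [Nat.card_zpowers, hoy, hval, pow_one])
    obtain ⟨g, hg⟩ := MulAction.exists_smul_eq K Py Px
    -- so `x` fixes `chAct A g lam`
    have hxfix : chAct A x (chAct A (g : S) lam) = chAct A (g : S) lam := by
      have hmem : (⟨x, hxK⟩ : K) ∈ ((g • Py : Sylow q K) : Subgroup K) := by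
        rw [hg]; exact Subgroup.mem_zpowers _
      rw [Sylow.coe_subgroup_smul, Subgroup.mem_pointwise_smul_iff_inv_smul_mem] at hmem
      obtain ⟨j, hj⟩ := hmem
      have hj' : (g : S)⁻¹ * x * (g : S) ∈ St := by
        have := congrArg Subtype.val hj
        simp only [Subgroup.coe_zpow] at this
        have e : ((MulAut.conj g)⁻¹ • (⟨x, hxK⟩ : K) : K).val = (g : S)⁻¹ * x * g := by
          simp
        rw [← e, ← this]
        exact St.zpow_mem y.2 j
      calc chAct A x (chAct A (g : S) lam) = chAct A (g : S) (chAct A ((g : S)⁻¹ * x * g) lam) := by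
            rw [← chAct_mul A, ← chAct_mul A]; congr 1; group
        _ = _ := by rw [hj'.2]
    set f := chAct A (g : S) lam
    set v := R (g : S) w₁
    have hv : IsEig f v := heig_move _ _ _ heig₁
    have hv0 : v ≠ 0 := fun h => hw₁ (by
      have := congrArg (R (g : S)⁻¹) h
      simpa [v, ← Module.End.mul_apply, ← map_mul] using this)
    -- `f` is fixed by all of `⟨x⟩`, so trivial on the commutators
    have hzfix : ∀ z ∈ Subgroup.zpowers x, chAct A z f = f := by
      intro z hz
      obtain ⟨i, rfl⟩ : z ∈ Submonoid.powers x :=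
        (mem_powers_iff_mem_zpowers (x := x) (y := z)).2 hz
      clear hz
      induction i with
      | zero => simp [chAct_one]
      | succ i ih => simp only [pow_succ', chAct_mul] at ih ⊢; rw [ih, hxfix]
    refine hv0 (hfix v fun a ha => ?_)
    rw [← hcomm, Subgroup.commutator_def] at ha
    induction ha using Subgroup.closure_induction with
    | mem t ht =>
      obtain ⟨a, ha, z, hz, rfl⟩ := ht
      have h1 : chAct A z f ⟨z * a⁻¹ * z⁻¹, (‹A.Normal›).conj_mem _ (inv_mem ha) z⟩ = f ⟨a⁻¹, inv_mem ha⟩ := by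
        simp only [chAct]; congr 1; ext; simp [mul_assoc]
      rw [hzfix z hz] at h1
      have e1 := hv ⟨a, ha⟩
      have e2 := hv ⟨z * a⁻¹ * z⁻¹, (‹A.Normal›).conj_mem _ (inv_mem ha) z⟩
      have e3 := hv ⟨a⁻¹, inv_mem ha⟩
      rw [commutatorElement_def, show a * z * a⁻¹ * z⁻¹ = a * (z * a⁻¹ * z⁻¹) by group, map_mul,
        Module.End.mul_apply, e2, h1, map_smul, e1, smul_smul]
      have e4 : R a⁻¹ (R a v) = v := by
        rw [← Module.End.mul_apply, ← map_mul, inv_mul_cancel, map_one]; rfl
      rw [e1, map_smul, e3, smul_smul] at e4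
      rw [mul_comm]
      exact e4
    | one => simp
    | mul s t _ _ hs ht => rw [map_mul, Module.End.mul_apply, ht, hs]
    | inv s _ hs =>
      nth_rewrite 1 [← hs]
      rw [← Module.End.mul_apply, ← map_mul, inv_mul_cancel, map_one]
      rfl
  -- a vector fixed by the stabilizer
  have hSt2 : IsPGroup 2 St := by
    obtain ⟨n, hn⟩ := hD.exists_card_eq
    have h1 : Nat.card St ∣ 2 ^ n * q := by
      rw [← hn, ← hK]; exact Subgroup.card_dvd_of_le hStK
    have h2 : Nat.card St ∣ 2 ^ n := (((hq.coprime_iff_not_dvd).2 hq_St).symm).dvd_of_dvd_mul_right h1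
    obtain ⟨m, _, hm⟩ := (Nat.dvd_prime_pow Nat.prime_two).1 h2
    exact IsPGroup.of_card hm
  let W : Submodule k V :=
    { carrier := {v | IsEig lam v}
      add_mem' := fun {u v} hu hv a => by rw [map_add, hu a, hv a, smul_add]
      zero_mem' := fun a => by simp
      smul_mem' := fun c v hv a => by rw [map_smul, hv a, smul_comm] }
  obtain ⟨w, hwW, hw0, hwfix⟩ := exists_fixed_of_isPGroup (p := 2) R St hSt2 W
    (fun g hg v hv => by
      have := heig_move g lam v hv
      rw [hg.2] at this
      exact this) w₁ heig₁ hw₁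
  -- the vector attached to each character in the orbit
  let O : Finset (A → k) := Finset.univ.image fun g : K => chAct A g lam
  have hOmem : ∀ f, f ∈ O ↔ ∃ g : K, chAct A g lam = f := fun f => by simp [O]
  let vec : (A → k) → V := fun f => if h : ∃ g : K, chAct A g lam = f then R (h.choose : S) w else 0
  have hvec : ∀ g : K, vec (chAct A g lam) = R (g : S) w := by
    intro g
    have h : ∃ g' : K, chAct A g' lam = chAct A g lam := ⟨g, rfl⟩
    simp only [vec, dif_pos h]
    have hc := h.choose_spec
    have hmem : (g : S)⁻¹ * (h.choose : S) ∈ St := by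
      refine ⟨K.mul_mem (K.inv_mem g.2) h.choose.2, ?_⟩
      rw [chAct_mul A, hc, ← chAct_mul A, inv_mul_cancel, chAct_one A]
    have := congrArg (R (g : S)) (hwfix _ hmem)
    rwa [← Module.End.mul_apply, ← map_mul, mul_inv_cancel_left] at this
  have hvec_move : ∀ g ∈ K, ∀ f ∈ O, R g (vec f) = vec (chAct A g f) := by
    intro g hg f hf
    obtain ⟨h, rfl⟩ := (hOmem f).1 hf
    rw [hvec h, ← Module.End.mul_apply, ← map_mul, ← chAct_mul A]
    exact (hvec ⟨g * h, K.mul_mem hg h.2⟩).symm
  have hO_inv : ∀ g ∈ K, ∀ f ∈ O, chAct A g f ∈ O := by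
    intro g hg f hf
    obtain ⟨h, rfl⟩ := (hOmem f).1 hf
    exact (hOmem _).2 ⟨⟨g * h, K.mul_mem hg h.2⟩, chAct_mul A _ _ _⟩
  have hveig : ∀ f ∈ O, IsEig f (vec f) := by
    intro f hf
    obtain ⟨h, rfl⟩ := (hOmem f).1 hf
    rw [hvec]; exact heig_move _ _ _ hwW
  have hvne : ∀ f ∈ O, vec f ≠ 0 := by
    intro f hf e
    obtain ⟨h, rfl⟩ := (hOmem f).1 hf
    rw [hvec] at e
    have := congrArg (R (h : S)⁻¹) e
    rw [← Module.End.mul_apply, ← map_mul, inv_mul_cancel, map_one, map_zero] at this
    exact hw0 this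
  have hsum_ne : ∀ (s : Finset (A → k)), s ⊆ O → ∀ c : (A → k) → k, ∑ f ∈ s, c f • vec f = 0 →
      ∀ f ∈ s, c f = 0 := by
    intro s hs c hc f hf
    refine (smul_eq_zero.1 (eq_zero_of_sum_eq_zero (fun a : A => R (a : S)) (fun f : A → k => f) s
      (fun f => c f • vec f) (fun i _ j _ h => h)
      (fun i hi a => by rw [map_smul, hveig i (hs hi) a, smul_comm]) hc f hf)).resolve_right (hvne f (hs hf))
  have hmove_sum : ∀ g ∈ K, ∀ s : Finset (A → k), s ⊆ O →
      R g (∑ f ∈ s, vec f) = ∑ f ∈ s.image (chAct A g), vec f := by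
    intro g hg s hs
    rw [map_sum, Finset.sum_image]
    · exact Finset.sum_congr rfl fun f hf => hvec_move g hg f (hs hf)
    · intro f _ f' _ e
      have := congrArg (chAct A g⁻¹) e
      rwa [← chAct_mul A, ← chAct_mul A, inv_mul_cancel, chAct_one A, chAct_one A] at this
  have hlamO : lam ∈ O := (hOmem lam).2 ⟨1, chAct_one A _⟩
  refine ⟨⟨∑ f ∈ O, vec f, ?_, ?_⟩, ?_⟩
  · intro e
    exact one_ne_zero (hsum_ne O subset_rfl (fun _ => (1 : k)) (by simpa using e) lam hlamO)
  · intro g hg
    rw [hmove_sum g hg O subset_rfl]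
    congr 1
    refine Finset.eq_of_subset_of_card_le (Finset.image_subset_iff.2 (hO_inv g hg))
      (le_of_eq (Finset.card_image_of_injective O (f := chAct A g) (fun f f' e => ?_)).symm)
    have := congrArg (chAct A g⁻¹) e
    rwa [← chAct_mul A, ← chAct_mul A, inv_mul_cancel, chAct_one A, chAct_one A] at this
  haveI : Fintype D := Fintype.ofFinite _
  let O₂ : Finset (A → k) := Finset.univ.image fun g : D => chAct A g lam
  have hDK : D ≤ K := le_sup_left
  have hO₂O : O₂ ⊆ O := fun f hf => by
    obtain ⟨g, -, rfl⟩ := Finset.mem_image.1 hf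
    exact (hOmem _).2 ⟨⟨g, hDK g.2⟩, rfl⟩
  refine ⟨∑ f ∈ O₂, vec f, ?_, ?_⟩
  · intro g hg
    rw [hmove_sum g (hDK hg) O₂ hO₂O]
    congr 1
    ext f
    simp only [O₂, Finset.mem_image, Finset.mem_univ, true_and, exists_exists_eq_and]
    constructor
    · rintro ⟨h, rfl⟩
      exact ⟨⟨g * h, D.mul_mem hg h.2⟩, chAct_mul A _ _ _⟩
    · rintro ⟨h, rfl⟩
      exact ⟨⟨g⁻¹ * h, D.mul_mem (D.inv_mem hg) h.2⟩, by rw [← chAct_mul A, mul_inv_cancel_left]⟩
  · have hxK : x ∈ K := Subgroup.mem_sup_right (Subgroup.mem_zpowers x)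
    intro e
    rw [hmove_sum x hxK O₂ hO₂O] at e
    set O₃ := O₂.image (chAct A x)
    have hO₃O : O₃ ⊆ O := fun f hf => by
      obtain ⟨f', hf', rfl⟩ := Finset.mem_image.1 hf
      exact hO_inv x hxK f' (hO₂O hf')
    have heq : O₃ = O₂ := by
      have hz : ∑ f ∈ O₃ ∪ O₂, ((if f ∈ O₃ then (1 : k) else 0) - (if f ∈ O₂ then 1 else 0)) • vec f = 0 := by
        simp only [sub_smul, Finset.sum_sub_distrib, ite_smul, one_smul, zero_smul, Finset.sum_ite_mem,
          Finset.union_inter_cancel_left, Finset.union_inter_cancel_right]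
        rw [e, sub_self]
      have h1 := hsum_ne _ (Finset.union_subset hO₃O hO₂O) _ hz
      ext f
      constructor
      · intro hf
        by_contra hf'
        have := h1 f (Finset.mem_union_left _ hf)
        simp [hf, hf'] at this
      · intro hf
        by_contra hf'
        have := h1 f (Finset.mem_union_right _ hf)
        simp [hf, hf'] at this
    -- `O₂` is stable under `K`, so equals `O`
    let Stab : Subgroup S :=
      { carrier := {g | O₂.image (chAct A g) = O₂}
        one_mem' := by ext f; simp [chAct_one]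
        mul_mem' := fun {a b} ha hb => by
          show O₂.image (chAct A (a * b)) = O₂
          rw [show chAct A (a * b) = chAct A a ∘ chAct A b from funext (chAct_mul A a b), ← Finset.image_image, hb, ha]
        inv_mem' := fun {a} ha => by
          show O₂.image (chAct A a⁻¹) = O₂
          conv_lhs => rw [← ha]
          rw [Finset.image_image, ← show chAct A (a⁻¹ * a) = chAct A a⁻¹ ∘ chAct A a from funext (chAct_mul A _ a)]
          ext f; simp [chAct_one] }
    have hKle : K ≤ Stab := by
      refine sup_le (fun g hg => ?_) (Subgroup.zpowers_le.2 heq)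
      show O₂.image (chAct A g) = O₂
      ext f
      simp only [O₂, Finset.mem_image, Finset.mem_univ, true_and, exists_exists_eq_and]
      constructor
      · rintro ⟨h, rfl⟩
        exact ⟨⟨g * h, D.mul_mem hg h.2⟩, chAct_mul A _ _ _⟩
      · rintro ⟨h, rfl⟩
        exact ⟨⟨g⁻¹ * h, D.mul_mem (D.inv_mem hg) h.2⟩, by rw [← chAct_mul A, mul_inv_cancel_left]⟩
    have hOO : O = O₂ := by
      refine subset_antisymm (fun f hf => ?_) hO₂O
      obtain ⟨g, rfl⟩ := (hOmem f).1 hf
      rw [← (hKle g.2 : O₂.image (chAct A g) = O₂)]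
      exact Finset.mem_image_of_mem _ (Finset.mem_image.2 ⟨1, Finset.mem_univ _, chAct_one A _⟩)
    -- count
    have horbit : ∀ (L : Subgroup S) [Fintype L], (∀ g ∈ L, g ∈ K) →
        (Finset.univ.image fun g : L => chAct A g lam).card * Nat.card (St.subgroupOf L) = Nat.card L := by
      intro L _ hL
      have hcardim : (Finset.univ.image fun g : L => chAct A g lam).card = (St.subgroupOf L).index := by
        rw [Subgroup.index, ← Nat.card_eq_finsetCard]
        symm
        refine Nat.card_congr (Equiv.ofBijective (fun c => Quotient.liftOn' c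
          (fun g : L => (⟨chAct A g lam, Finset.mem_image_of_mem _ (Finset.mem_univ g)⟩ :
            ↥(Finset.univ.image fun g : L => chAct A g lam))) (fun g h hgh => ?_)) ⟨?_, ?_⟩)
        · rw [QuotientGroup.leftRel_apply, Subgroup.mem_subgroupOf] at hgh
          apply Subtype.ext
          have := hgh.2
          simp only [Subgroup.coe_mul, Subgroup.coe_inv] at this
          calc chAct A g lam = chAct A g (chAct A ((g : S)⁻¹ * h) lam) := by rw [this]
            _ = _ := by rw [← chAct_mul A, mul_inv_cancel_left]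
        · intro c d
          induction c using Quotient.inductionOn' with
          | h g =>
            induction d using Quotient.inductionOn' with
            | h h =>
              intro e
              have e' : chAct A g lam = chAct A h lam := congrArg Subtype.val e
              refine Quotient.sound' ?_
              rw [QuotientGroup.leftRel_apply, Subgroup.mem_subgroupOf]
              refine ⟨hL _ (g⁻¹ * h).2, ?_⟩
              simp only [Subgroup.coe_mul, Subgroup.coe_inv]
              rw [chAct_mul A, ← e', ← chAct_mul A, inv_mul_cancel, chAct_one A]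
        · rintro ⟨f, hf⟩
          obtain ⟨g, -, rfl⟩ := Finset.mem_image.1 hf
          exact ⟨Quotient.mk'' g, rfl⟩
      rw [hcardim, Subgroup.index_mul_card]
    have h1 : O.card * Nat.card (St.subgroupOf K) = Nat.card K := horbit K fun g hg => hg
    have h2 : O₂.card * Nat.card (St.subgroupOf D) = Nat.card D := horbit D fun g hg => hDK hg
    have hdvdq : q ∣ O.card := by
      refine (hq.dvd_mul.1 (h1 ▸ hK ▸ dvd_mul_left q _)).resolve_right ?_
      rw [Nat.card_congr (Subgroup.subgroupOfEquivOfLe hStK).toEquiv]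
      exact hq_St
    obtain ⟨n, hn⟩ := hD.exists_card_eq
    have h3 : q ∣ 2 ^ n := hn ▸ h2 ▸ (hOO ▸ hdvdq).mul_right _
    exact hq2 ((Nat.prime_dvd_prime_iff_eq hq Nat.prime_two).1 (hq.dvd_of_dvd_pow h3))

end CfsgLib.FixedPointBound
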